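import Cfsg.Agent.Bz.A
import Cfsg.Agent.Clifford.GlaubCyc

/-! Four characters of odd degree, two of them swapped by a Galois involution: all are linear. -/

set_option autoImplicit false
open Cfsg CF.Char

namespace CF.Fo

variable {G : Type*} [Group G]

theorem D_odd {k a : ℕ} {g : G} (ha : (g ^ k) ^ 2 ^ a = g ^ 2 ^ a) (hg : ¬ 2 ∣ orderOf g) :
    g ^ k = g := by
  have h1 : g ^ (k * 2 ^ a) = g ^ (1 * 2 ^ a) := by rw [pow_mul, ha, one_mul]
  rw [pow_eq_pow_iff_modEq] at h1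
  have h2 := Nat.ModEq.cancel_right_of_coprime
    (((Nat.Prime.coprime_iff_not_dvd Nat.prime_two).2 hg).symm.pow_right a) h1
  conv_rhs => rw [← pow_one g]
  exact pow_eq_pow_iff_modEq.2 h2

theorem D_four {X : Type*} (h4 : Nat.card X = 4) {a b c : X} (hab : a ≠ b) (hac : a ≠ c)
    (hbc : b ≠ c) : ∃ d, d ≠ a ∧ d ≠ b ∧ d ≠ c ∧ ∀ x, x = a ∨ x = b ∨ x = c ∨ x = d := by
  classical
  have : Finite X := Nat.finite_of_card_ne_zero (by omega)
  have := Fintype.ofFinite X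
  have h3 : ({a, b, c} : Finset X).card = 3 := Finset.card_eq_three.2 ⟨a, b, c, hab, hac, hbc, rfl⟩
  have h1 : (({a, b, c} : Finset X)ᶜ).card = 1 := by
    rw [Finset.card_compl, h3, ← Nat.card_eq_fintype_card, h4]
  obtain ⟨d, hd⟩ := Finset.card_eq_one.1 h1
  have h2 : ∀ x, x = d ↔ ¬ (x = a ∨ x = b ∨ x = c) := fun x => by
    rw [← Finset.mem_singleton, ← hd]; simp
  have h5 := (h2 d).1 rfl
  refine ⟨d, by tauto, by tauto, by tauto, fun x => ?_⟩
  have := h2 x
  tauto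

theorem D_lin [Finite G]
    (h4 : Nat.card {χ : IrrCharacter G // ¬ 2 ∣ charDegree (χ : G → ℂ)} = 4) (s : ℂ →+* ℂ)
    (k a : ℕ) (hk : ∀ χ : G → ℂ, IsCharacter G χ → ∀ g, s (χ g) = χ (g ^ k))
    (hkk : ∀ g : G, (g ^ k) ^ k = g) (ha : ∀ g : G, (g ^ k) ^ 2 ^ a = g ^ 2 ^ a)
    (χ : IrrCharacter G) (hχ : ¬ 2 ∣ charDegree (χ : G → ℂ))
    (hne : ∃ g, s ((χ : G → ℂ) g) ≠ (χ : G → ℂ) g) :
    ∀ θ : IrrCharacter G, ¬ 2 ∣ charDegree (θ : G → ℂ) → charDegree (θ : G → ℂ) = 1 := by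
  classical
  obtain ⟨M, hM⟩ := CF.BlockB.exists_isPModular Nat.prime_two
  let f : IrrCharacter G → IrrCharacter G := fun θ => ⟨fun g => s (θ.1 g), irr_map θ.2 s⟩
  have hf : ∀ (θ : IrrCharacter G) g, (f θ).1 g = θ.1 (g ^ k) := fun θ g =>
    hk _ (irr_isCharacter θ.2) g
  have hff : ∀ θ, f (f θ) = θ := fun θ => Subtype.ext (funext fun g => by rw [hf, hf, hkk])
  have hf1 : ∀ θ : IrrCharacter G, (f θ).1 1 = θ.1 1 := fun θ => by rw [hf, one_pow]
  have hfd : ∀ θ : IrrCharacter G, charDegree (f θ).1 = charDegree θ.1 := fun θ => by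
    simp only [charDegree, hf1]
  have hfχ : f χ ≠ χ := fun h => by
    obtain ⟨g, hg⟩ := hne
    exact hg (congrFun (congrArg Subtype.val h) g)
  have h2 : 2 ∣ Nat.card G := by
    by_contra h
    refine hfχ (Subtype.ext (funext fun g => ?_))
    rw [hf, D_odd (ha g) fun h' => h (h'.trans (orderOf_dvd_natCard g))]
  have hd1 : ∀ θ : IrrCharacter G, θ.1 1 = 1 → charDegree θ.1 = 1 := fun θ h =>
    CF.BlockB.charDegree_of_eq (n := 1) (h.trans Nat.cast_one.symm)
  have ho1 : ∀ θ : IrrCharacter G, θ.1 1 = 1 → ¬ 2 ∣ charDegree θ.1 := fun θ h => by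
    rw [hd1 θ h]; norm_num
  have hfo : f (oneIrr G) = oneIrr G := Subtype.ext (funext fun g => by rw [hf]; rfl)
  obtain ⟨⟨ψ, hψ⟩, n1, n2, n3, hall⟩ := D_four h4 (a := ⟨oneIrr G, ho1 _ rfl⟩) (b := ⟨χ, hχ⟩)
    (c := ⟨f χ, by rw [hfd]; exact hχ⟩)
    (fun h => hfχ (by rw [← show oneIrr G = χ from congrArg Subtype.val h, hfo]))
    (fun h => hfχ (by
      have h1 : oneIrr G = f χ := congrArg Subtype.val h
      rw [← h1, ← hff χ, ← h1, hfo]))
    (fun h => hfχ (congrArg Subtype.val h).symm)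
  have m1 : ψ ≠ oneIrr G := fun h => n1 (Subtype.ext h)
  have m2 : ψ ≠ χ := fun h => n2 (Subtype.ext h)
  have m3 : ψ ≠ f χ := fun h => n3 (Subtype.ext h)
  have hall' : ∀ θ : IrrCharacter G, ¬ 2 ∣ charDegree θ.1 →
      θ = oneIrr G ∨ θ = χ ∨ θ = f χ ∨ θ = ψ := fun θ h => by
    simpa only [Subtype.mk.injEq] using hall ⟨θ, h⟩
  have hfψ : f ψ = ψ := by
    rcases hall' (f ψ) (by rw [hfd]; exact hψ) with h | h | h | h
    · exact absurd (by rw [← hff ψ, h, hfo]) m1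
    · exact absurd (by rw [← hff ψ, h]) m3
    · exact absurd (by rw [← hff ψ, h, hff]) m2
    · exact h
  have hψ1 : ψ.1 1 = 1 := by
    refine CF.Bz.linear_of_res hM ψ fun w hw => ?_
    have h1 := CF.Bz.sum_fixed_eq_zero hM h2 (B := Set.univ)
      (by rw [CF.BlockB.eSet_univ, CF.BlockB.nrm_one]) f (e := 1) (fun θ => hff θ)
      (fun _ _ => trivial) (w := w) hf1 (fun θ => by rw [hf, D_odd (ha w) hw]) {oneIrr G, ψ}
      (fun θ => by
        rw [Finset.mem_insert, Finset.mem_singleton]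
        refine ⟨?_, fun ⟨_, h1, h3⟩ => ?_⟩
        · rintro (rfl | rfl)
          · exact ⟨trivial, ho1 _ rfl, hfo⟩
          · exact ⟨trivial, hψ, hfψ⟩
        · rcases hall' θ h1 with h | h | h | h
          · exact Or.inl h
          · exact absurd (h ▸ h3) hfχ
          · exact absurd (by rw [h, hff] at h3; exact h3.symm) hfχ
          · exact Or.inr h)
    rw [Finset.sum_pair m1.symm] at h1
    rw [CF.BlockB.v_eq_one_iff_not_lt (CF.BlockB.v_irr_le_one ψ w)]
    intro h3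
    rw [(CF.BlockB.resC_eq_zero_iff (CF.Bz.v_term_le ψ w)).2
      (CF.BlockB.v_mul_lt_one_right (CF.BlockB.v_irr_le_one ψ 1) h3), add_zero] at h1
    have h5 : (oneIrr G : G → ℂ) 1 * (oneIrr G : G → ℂ) w = 1 := mul_one _
    rw [h5, CF.BlockB.resC_one] at h1
    exact one_ne_zero h1
  suffices hd : charDegree χ.1 = 1 by
    intro θ hθ
    rcases hall' θ hθ with rfl | rfl | rfl | rfl
    · exact hd1 _ rfl
    · exact hd
    · rw [hfd, hd]
    · exact hd1 _ hψ1
  by_contra hd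
  have hlin : ∀ θ : IrrCharacter G, θ.1 1 = 1 → θ = oneIrr G ∨ θ = ψ := fun θ h => by
    rcases hall' θ (ho1 θ h) with h1 | h1 | h1 | h1
    · exact Or.inl h1
    · exact absurd (h1 ▸ hd1 θ h) hd
    · exact absurd ((hfd χ).symm.trans (h1 ▸ hd1 θ h)) hd
    · exact Or.inr h1
  obtain ⟨lam, hlam⟩ := exists_linear_of_one (irr_isCharacter ψ.2) hψ1
  have hc := irr_isCharacter χ.2
  have hdet : ∀ g, s (detChar χ.1 g) = detChar χ.1 g := fun g => by
    have h1 : f ⟨_, irr_linear (CF.Clifford.detHom hc)⟩ = ⟨_, irr_linear (CF.Clifford.detHom hc)⟩ := by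
      rcases hlin ⟨_, irr_linear (CF.Clifford.detHom hc)⟩ (by simp) with h | h
      · rw [h, hfo]
      · rw [h, hfψ]
    exact congrFun (congrArg Subtype.val h1) g
  have hpow : ∀ g, (lam g : ℂ) ^ charDegree χ.1 = 1 := fun g => by
    have h1 := CF.Clifford.detChar_linear_mul lam hc (CF.BlockB.irr_charDegree_eq χ).symm g
    have h3 : charDegree (fun g => (lam g : ℂ) * χ.1 g) = charDegree χ.1 := by
      simp [charDegree]
    have h5 : detChar (fun g => (lam g : ℂ) * χ.1 g) g = detChar χ.1 g := by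
      rcases hall' ⟨_, CF.Clifford.irr_linear_mul lam χ.2⟩ (by rw [h3]; exact hχ) with h | h | h | h
      · exact absurd (h3.symm.trans (hd1 ⟨_, CF.Clifford.irr_linear_mul lam χ.2⟩ (by rw [h]; rfl))) hd
      · rw [show (fun g => (lam g : ℂ) * χ.1 g) = χ.1 from congrArg Subtype.val h]
      · rw [show (fun g => (lam g : ℂ) * χ.1 g) = fun g => s (χ.1 g) from congrArg Subtype.val h,
          CF.Clifford.detChar_map hc, hdet]
      · exact absurd (h3.symm.trans (hd1 ⟨_, CF.Clifford.irr_linear_mul lam χ.2⟩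
          (by rw [h]; exact hψ1))) hd
    rw [h5] at h1
    exact (mul_eq_right₀ (CF.Clifford.detChar_ne_zero hc g)).1 h1.symm
  refine m1 (Subtype.ext (hlam.trans (funext fun g => ?_)))
  change (lam g : ℂ) = 1
  rcases hlin ⟨_, irr_linear (lam ^ 2)⟩ (by simp) with h | h
  · have h1 : ((lam ^ 2) g : ℂ) = 1 := congrFun (congrArg Subtype.val h) g
    rw [MonoidHom.pow_apply, Units.val_pow_eq_pow_val] at h1
    obtain ⟨m, hm⟩ : Odd (charDegree χ.1) := by rw [Nat.odd_iff, ← Nat.two_dvd_ne_zero]; exact hχ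
    have h3 := hpow g
    rwa [hm, pow_succ, pow_mul, h1, one_pow, one_mul] at h3
  · have h1 : ((lam ^ 2) g : ℂ) = lam g := congrFun ((congrArg Subtype.val h).trans hlam) g
    rw [MonoidHom.pow_apply, Units.val_pow_eq_pow_val, sq] at h1
    exact (mul_eq_right₀ (lam g).ne_zero).1 h1

end CF.Fo
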