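import Cfsg.Agent.S4456
import Cfsg.Agent.Char.Kernel

/-! Four odd-degree characters, all linear -/

set_option autoImplicit false

namespace CF.Fo
open Cfsg CF.Char

variable {G : Type*} [Group G]

theorem E_comap {H K : Type*} [Group H] [Group K] (f : H →* K) (hf : Function.Surjective f)
    (hk : f.ker ≤ commutator H) : (commutator H).index = (commutator K).index := by
  have e : (commutator H).map f = commutator K := by
    rw [commutator_def, commutator_def, Subgroup.map_commutator,
      Subgroup.map_top_of_surjective f hf]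
  rw [← Subgroup.index_comap_of_surjective _ hf, ← e, Subgroup.comap_map_eq, sup_of_le_left hk]

theorem E_lin [Finite G] (P : Sylow 2 G)
    (h4 : Nat.card {χ : IrrCharacter G // ¬ 2 ∣ charDegree (χ : G → ℂ)} = 4)
    (hl : ∀ θ : IrrCharacter G, ¬ 2 ∣ charDegree (θ : G → ℂ) → charDegree (θ : G → ℂ) = 1) :
    (commutator P).index = 4 := by
  obtain ⟨N, nN, co, k, hk⟩ := Cfsg.Agent.S4456.result (G := G) 2 Nat.prime_two
    fun χ h => by_contra fun h' => h (hl χ h')
  have h1 : (commutator G).index = 4 := by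
    rw [← card_irr_one_eq_one, ← h4]
    refine Nat.card_congr (Equiv.subtypeEquivRight fun χ => ⟨fun h => ?_, fun h => ?_⟩)
    · have : charDegree (χ : G → ℂ) = 1 := by simp [charDegree, h]
      rw [this]; decide
    · rw [CF.BlockB.Ord.irr_deg_eq χ.2, hl χ h, Nat.cast_one]
  have odd : ∀ n ∈ N, ∀ j : ℕ, orderOf n ∣ 2 ^ j → n = 1 := fun n hn j h => by
    have a : orderOf n ∣ Nat.card N := Subgroup.orderOf_dvd_natCard N hn
    exact orderOf_eq_one_iff.1 (Nat.eq_one_of_dvd_coprimes (co.pow_right j) a h)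
  have le : N ≤ commutator G := fun n hn => by
    have a : orderOf n ∣ Nat.card N := Subgroup.orderOf_dvd_natCard N hn
    have b : orderOf (QuotientGroup.mk' (commutator G) n) ∣ 2 ^ 2 := by
      have := orderOf_dvd_natCard (QuotientGroup.mk' (commutator G) n)
      rwa [← Subgroup.index_eq_card, h1] at this
    have c : orderOf (QuotientGroup.mk' (commutator G) n) ∣ Nat.card N :=
      (orderOf_map_dvd _ n).trans a
    have d := Nat.eq_one_of_dvd_coprimes (co.pow_right 2) c b
    exact (QuotientGroup.eq_one_iff n).1 (orderOf_eq_one_iff.1 d)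
  have pg : IsPGroup 2 (G ⧸ N) := IsPGroup.of_card (by rw [← Subgroup.index_eq_card, hk])
  have sj : Function.Surjective ((QuotientGroup.mk' N).comp (P : Subgroup G).subtype) := by
    have t : ((P.mapSurjective (QuotientGroup.mk'_surjective N) : Sylow 2 (G ⧸ N)) :
        Subgroup (G ⧸ N)) = ⊤ :=
      ((P.mapSurjective (QuotientGroup.mk'_surjective N)).is_maximal' (pg.to_subgroup ⊤) le_top).symm
    rw [Sylow.coe_mapSurjective] at t
    intro y
    obtain ⟨x, hx, e⟩ : y ∈ (P : Subgroup G).map (QuotientGroup.mk' N) := t ▸ Subgroup.mem_top y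
    exact ⟨⟨x, hx⟩, e⟩
  rw [E_comap _ sj, ← E_comap _ (QuotientGroup.mk'_surjective N) (by rwa [QuotientGroup.ker_mk']), h1]
  intro x hx
  obtain ⟨j, hj⟩ := IsPGroup.iff_orderOf.1 P.isPGroup' x
  have : (x : G) = 1 := odd x ((QuotientGroup.eq_one_iff _).1 hx) j
    (by rw [Subgroup.orderOf_coe, hj])
  rw [show x = 1 from Subtype.ext this]
  exact one_mem _

end CF.Fo
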