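import Cfsg.Agent.Char.Kernel
import Cfsg.Prelude.Def_Blocks

set_option autoImplicit false
open Cfsg CF.Char

namespace CF.Fo

variable {G : Type*} [Group G]

theorem F_le_index [Finite G] (P : Sylow 2 G) (hc : IsCyclic P) :
    Nat.card P ≤ (commutator G).index := by
  have hpos : 0 < (commutator G).index := Nat.pos_of_ne_zero Subgroup.FiniteIndex.index_ne_zero
  by_cases h2 : 2 ∣ Nat.card G
  · have hm : (Nat.card G).minFac = 2 := (Nat.minFac_eq_two_iff _).2 h2
    have hK := IsCyclic.isComplement' hm hc
    have : IsMulCommutative (P : Subgroup G) := hc.isMulCommutative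
    have hle : commutator G ≤
        (MonoidHom.transferSylow P (hc.normalizer_le_centralizer hm)).ker := by
      rw [commutator_def, Subgroup.commutator_le]
      intro a _ b _
      rw [MonoidHom.mem_ker, map_commutatorElement, commutatorElement_eq_one_iff_mul_comm]
      exact mul_comm' _ _
    rw [← hK.symm.index_eq_card]
    exact Nat.le_of_dvd hpos (Subgroup.index_dvd_of_le hle)
  · have : Nat.card P = 1 := by
      rw [P.card_eq_multiplicity, Nat.factorization_eq_zero_of_not_dvd h2, pow_zero]
    omega

theorem F_cyc [Finite G] (P : Sylow 2 G) (hc : IsCyclic P) :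
    Nat.card P ≤ Nat.card {χ : IrrCharacter G // ¬ 2 ∣ charDegree (χ : G → ℂ)} := by
  refine (F_le_index P hc).trans ?_
  rw [← card_irr_one_eq_one]
  refine Nat.card_le_card_of_injective
    (fun χ => ⟨χ.1, by simp [charDegree, χ.2]⟩) fun a b h => Subtype.ext (congrArg (·.1) h)

end CF.Fo
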