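import Mathlib.Tactic
import Cfsg.Agent.Fo.A
import Cfsg.Agent.Fo.B
import Cfsg.Agent.R2c.Herz
import Cfsg.Agent.S4477

/-!
# The sign of the Fourier determinant and the number of involutions
-/

set_option autoImplicit false
open Cfsg CF.Char

namespace CF.Fo
variable {G : Type*} [Group G]

theorem G_root (s : ℂ →+* ℂ) (hI : s Complex.I = -Complex.I) {x : ℂ} {e f : ℕ}
    (hx : x ^ 2 = (-1) ^ f) (hs : s x = (-1) ^ e * x) : Even (e + f) := by
  rcases Nat.even_or_odd f with hf | hf <;> rcases Nat.even_or_odd e with he | he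
  · exact he.add hf
  · rw [hf.neg_one_pow, ← one_pow 2] at hx
    rw [he.neg_one_pow] at hs
    rcases sq_eq_sq_iff_eq_or_eq_neg.mp hx with rfl | rfl
    all_goals norm_num at hs
  · rw [hf.neg_one_pow, ← Complex.I_sq] at hx
    rw [he.neg_one_pow, one_mul] at hs
    have h0 : Complex.I ≠ -Complex.I := fun h => Complex.I_ne_zero (by linear_combination h / 2)
    rcases sq_eq_sq_iff_eq_or_eq_neg.mp hx with rfl | rfl
    · exact absurd (hs.symm.trans hI) h0
    · rw [map_neg, hI, neg_neg] at hs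
      exact absurd hs h0
  · exact he.add_odd hf

/-- The parity relation: `e` is the sign exponent of `s` on the determinant `D`. -/
theorem G_parity [Fintype G] (h2 : 2 ∣ Nat.card G) (s : ℂ →+* ℂ) (hI : s Complex.I = -Complex.I)
    (hs : ∀ (m : ℕ) (z : ℂ), Odd m → m ∣ Nat.card G → z ^ m = 1 → s z = z) {D : ℂ} {e J : ℕ}
    (hD : s D = (-1) ^ e * D)
    (hsq : D ^ 2 * ∏ χ : IrrCharacter G,
        (charDegree (χ : G → ℂ) : ℂ) ^ (charDegree (χ : G → ℂ) ^ 2) = (-1) ^ J *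
        (-1) ^ (∑ χ : IrrCharacter G, charDegree (χ : G → ℂ) * (charDegree (χ : G → ℂ) - 1) / 2) *
        (Nat.card G : ℂ) ^ (Nat.card G)) :
    Even (e + (J + ∑ χ : IrrCharacter G, if charDegree (χ : G → ℂ) % 4 = 2 then 1 else 0)) := by
  have hn : Nat.card G ≠ 0 := (Nat.card_pos (α := G)).ne'
  choose r hr1 hr2 using fun χ : IrrCharacter G => B_root s hn hs (A_deg_dvd χ)
  obtain ⟨c, hc⟩ := h2
  have ht : ((Nat.card G : ℂ) ^ c) ≠ 0 := pow_ne_zero _ (by exact_mod_cast hn)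
  have hR : (∏ χ, r χ) ^ 2 =
      (-1) ^ (∑ χ : IrrCharacter G, charDegree (χ : G → ℂ) * (charDegree (χ : G → ℂ) - 1) / 2) *
      (-1) ^ (∑ χ : IrrCharacter G, if charDegree (χ : G → ℂ) % 4 = 2 then 1 else 0) *
      ∏ χ : IrrCharacter G, (charDegree (χ : G → ℂ) : ℂ) ^ (charDegree (χ : G → ℂ) ^ 2) := by
    rw [← Finset.prod_pow, ← Finset.prod_pow_eq_pow_sum, ← Finset.prod_pow_eq_pow_sum,
      ← Finset.prod_mul_distrib, ← Finset.prod_mul_distrib]
    exact Finset.prod_congr rfl fun χ _ => hr2 χ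
  refine G_root s hI (x := D * (∏ χ, r χ) / (Nat.card G : ℂ) ^ c) ?_ ?_
  · have h1 : (Nat.card G : ℂ) ^ Nat.card G = ((Nat.card G : ℂ) ^ c) ^ 2 := by
      rw [← pow_mul, mul_comm c, ← hc]
    rw [h1] at hsq
    generalize (∑ χ : IrrCharacter G,
      charDegree (χ : G → ℂ) * (charDegree (χ : G → ℂ) - 1) / 2) = S at hsq hR
    have h2 : ((-1 : ℂ) ^ S) ^ 2 = 1 := by rw [← pow_mul, mul_comm, pow_mul]; simp
    rw [div_pow, mul_pow, hR, div_eq_iff (pow_ne_zero _ ht), pow_add]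
    linear_combination ((-1 : ℂ) ^ S * (-1) ^ (∑ χ : IrrCharacter G,
      if charDegree (χ : G → ℂ) % 4 = 2 then 1 else 0)) * hsq + ((-1 : ℂ) ^ J *
      (-1) ^ (∑ χ : IrrCharacter G, if charDegree (χ : G → ℂ) % 4 = 2 then 1 else 0) *
      ((Nat.card G : ℂ) ^ c) ^ 2) * h2
  · rw [map_div₀, map_mul, map_prod, map_pow, map_natCast, hD, Finset.prod_congr rfl fun χ _ => hr1 χ]
    ring

theorem G_card_sq [Finite G] :
    Nat.card {x : G // x * x = 1} = Nat.card {x : G // orderOf x = 2} + 1 := by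
  have h : {x : G | x * x = 1} = insert 1 {x : G | orderOf x = 2} := Set.ext fun x => by
    rcases eq_or_ne x 1 with rfl | e <;> simp [orderOf_eq_prime_iff, sq, *]
  have h1 := Nat.card_coe_set_eq {x : G | x * x = 1}
  have h2 := Nat.card_coe_set_eq {x : G | orderOf x = 2}
  rw [h, Set.ncard_insert_of_notMem (by simp), ← h2, ← h] at h1
  exact h1

/-- If `(|G| - #{x ^ 2 = 1}) / 2` is odd and `4 ∣ |G|` then a Sylow 2-subgroup is cyclic or has
abelianization of order four. -/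
theorem G_sylow [Finite G] (P : Sylow 2 G) (h4 : 4 ∣ Nat.card G)
    (hJ : Odd ((Nat.card G - Nat.card {x : G // x * x = 1}) / 2)) :
    IsCyclic P ∨ (commutator P).index = 4 := by
  refine Cfsg.Agent.S4477.result P.isPGroup' ?_
  rw [CF.R2c.card_invol_eq, ← CF.R2c.nsub_two_mod P h4, ← CF.R2c.card_invol_eq]
  have h1 : Nat.card {x : G // x * x = 1} ≤ Nat.card G := Finite.card_subtype_le _
  have h2 : Odd (CF.Fgs2.nsub G 2) := by
    have := CF.Fgs2.nsub_modEq_one (G := G) (β := 1) Nat.prime_two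
      (by simpa using (dvd_trans (by norm_num) h4 : 2 ∣ Nat.card G))
    rw [Nat.odd_iff]
    simpa [Nat.ModEq] using this
  rw [← CF.R2c.card_invol_eq] at h2
  rw [G_card_sq] at h1 hJ
  rw [Nat.odd_iff] at hJ h2
  omega

end CF.Fo
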